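import Mathlib

/-!
Common definitions for S4091 (number of `p`-elements of a `p`-solvable group).
-/

set_option autoImplicit false

namespace Cfsg.Agent.Lib.Helper82.Gh

variable {P V : Type*} [Group P] [Group V]

/-- The fixed points in `V` of the subgroup `H` of `P` (acting through `φ`). -/
def FixSub (φ : P →* MulAut V) (H : Subgroup P) : Subgroup V where
  carrier := {v | ∀ h ∈ H, φ h v = v}
  mul_mem' := by
    intro a b ha hb h hh
    rw [map_mul, ha h hh, hb h hh]
  one_mem' := by
    intro h _
    exact map_one _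
  inv_mem' := by
    intro a ha h hh
    rw [map_inv, ha h hh]

theorem mem_FixSub (φ : P →* MulAut V) (H : Subgroup P) (v : V) :
    v ∈ FixSub φ H ↔ ∀ h ∈ H, φ h v = v := Iff.rfl

/-- Restriction of the action to an invariant subgroup. -/
def resAct (φ : P →* MulAut V) (K : Subgroup V) (hK : ∀ x, ∀ v ∈ K, φ x v ∈ K) : P →* MulAut ↥K where
  toFun x :=
    { toFun := fun v => ⟨φ x v, hK x v v.2⟩
      invFun := fun v => ⟨φ x⁻¹ v, hK x⁻¹ v v.2⟩
      left_inv := by
        intro v
        apply Subtype.ext
        change φ x⁻¹ (φ x v) = v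
        rw [← MulAut.mul_apply, ← map_mul, inv_mul_cancel, map_one, MulAut.one_apply]
      right_inv := by
        intro v
        apply Subtype.ext
        change φ x (φ x⁻¹ v) = v
        rw [← MulAut.mul_apply, ← map_mul, mul_inv_cancel, map_one, MulAut.one_apply]
      map_mul' := by
        intro a b
        apply Subtype.ext
        change φ x (a * b) = φ x a * φ x b
        exact map_mul _ _ _ }
  map_one' := by
    ext v
    change φ 1 (v : V) = v
    rw [map_one, MulAut.one_apply]
  map_mul' := by
    intro x y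
    ext v
    change φ (x * y) (v : V) = φ x (φ y v)
    rw [map_mul, MulAut.mul_apply]

theorem resAct_apply (φ : P →* MulAut V) (K : Subgroup V) (hK : ∀ x, ∀ v ∈ K, φ x v ∈ K) (x : P)
    (v : ↥K) : ((resAct φ K hK x v : ↥K) : V) = φ x v := rfl

/-- The induced action on the abelianization. -/
noncomputable def abAct (φ : P →* MulAut V) : P →* MulAut (Abelianization V) where
  toFun x := (φ x).abelianizationCongr
  map_one' := by
    ext v
    obtain ⟨v, rfl⟩ := QuotientGroup.mk_surjective v
    change (φ 1).abelianizationCongr (Abelianization.of v) = Abelianization.of v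
    rw [abelianizationCongr_of, map_one, MulAut.one_apply]
  map_mul' := by
    intro x y
    ext v
    obtain ⟨v, rfl⟩ := QuotientGroup.mk_surjective v
    change (φ (x * y)).abelianizationCongr (Abelianization.of v) =
      (φ x).abelianizationCongr ((φ y).abelianizationCongr (Abelianization.of v))
    rw [abelianizationCongr_of, abelianizationCongr_of, abelianizationCongr_of, map_mul,
      MulAut.mul_apply]

theorem abAct_of (φ : P →* MulAut V) (x : P) (v : V) :
    abAct φ x (Abelianization.of v) = Abelianization.of (φ x v) :=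
  abelianizationCongr_of _ _

/-- The conjugation action of `P` (through `ι : P →* X`) on a subgroup `Q` of `X` normalised by `ι P`. -/
noncomputable def conjAct {X : Type*} [Group X] (ι : P →* X) (Q : Subgroup X)
    (hι : ∀ x, ι x ∈ Subgroup.normalizer (Q : Set X)) : P →* MulAut ↥Q :=
  (Subgroup.normalizerMonoidHom Q).comp (ι.codRestrict (Subgroup.normalizer (Q : Set X)) hι)

theorem conjAct_apply {X : Type*} [Group X] (ι : P →* X) (Q : Subgroup X)
    (hι : ∀ x, ι x ∈ Subgroup.normalizer (Q : Set X)) (x : P) (v : ↥Q) :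
    ((conjAct ι Q hι x v : ↥Q) : X) = ι x * v * (ι x)⁻¹ := rfl

/-- The inequality `(+)` for the whole group `V`. -/
def PlusT (p : ℕ) [Fintype P] (φ : P →* MulAut V) : Prop :=
  (∏ x : P, Nat.card ↥(FixSub φ (Subgroup.zpowers x))) ^ p ≤
    Nat.card V ^ Fintype.card P * Nat.card ↥(FixSub φ ⊤) ^ (Fintype.card P * (p - 1))

/-- The inequality `(+)` for a subgroup `K` of `V`. -/
def PlusK (p : ℕ) [Fintype P] (φ : P →* MulAut V) (K : Subgroup V) : Prop :=
  (∏ x : P, Nat.card ↥(K ⊓ FixSub φ (Subgroup.zpowers x))) ^ p ≤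
    Nat.card ↥K ^ Fintype.card P * Nat.card ↥(K ⊓ FixSub φ ⊤) ^ (Fintype.card P * (p - 1))

/-- The inequality `(+)` for a subgroup `V` of an ambient group `X`, `P` acting by conjugation through `ι`. -/
def PlusAmb {X : Type*} [Group X] (p : ℕ) [Fintype P] (ι : P →* X) (V : Subgroup X) : Prop :=
  (∏ x : P, Nat.card ↥(V ⊓ Subgroup.centralizer ({ι x} : Set X))) ^ p ≤
    Nat.card ↥V ^ Fintype.card P *
      Nat.card ↥(V ⊓ Subgroup.centralizer (ι.range : Set X)) ^ (Fintype.card P * (p - 1))

/-- The order of `C_{B/A}(H)` as counted in S4090. -/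
noncomputable def dC {G : Type*} [Group G] (A B H : Subgroup G) : ℕ :=
  Nat.card {u : G // u ∈ B ∧ ∀ h ∈ H, h * u * h⁻¹ * u⁻¹ ∈ A} / Nat.card ↥A

end Cfsg.Agent.Lib.Helper82.Gh
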