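import Mathlib
import Cfsg.Agent.Lib.Helper82.Gh.Defs

set_option autoImplicit false

namespace Cfsg.Agent.Lib.Helper82.Gh

theorem AB1a_mem_fix {P W : Type*} [Group P] [Group W] (φ : P →* MulAut W) (g : P) (v : W) :
    v ∈ FixSub φ (Subgroup.zpowers g) ↔ φ g v = v := by
  constructor
  · intro h
    exact h g (Subgroup.mem_zpowers g)
  · intro h
    let S : Subgroup P :=
      { carrier := {x | φ x v = v}
        mul_mem' := by
          intro a b ha hb
          change φ (a * b) v = v
          rw [map_mul, MulAut.mul_apply, hb, ha]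
        one_mem' := by
          change φ 1 v = v
          rw [map_one, MulAut.one_apply]
        inv_mem' := by
          intro a ha
          change φ a⁻¹ v = v
          have ha' : φ a v = v := ha
          calc φ a⁻¹ v = φ a⁻¹ (φ a v) := by rw [ha']
            _ = v := by rw [← MulAut.mul_apply, ← map_mul, inv_mul_cancel, map_one, MulAut.one_apply] }
    have hS : Subgroup.zpowers g ≤ S := by
      rw [Subgroup.zpowers_le]
      exact h
    intro x hx
    exact hS hx

/-- a vector fixed by `z ^ m`, `0 < m < p`, and by `z ^ p` is fixed by `z`. -/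
theorem AB1a_fix {P W : Type*} [Group P] [Group W] (φ : P →* MulAut W) (p : ℕ) (hp : p.Prime) (z : P)
    (w : W) (m : ℕ) (hm0 : 0 < m) (hmp : m < p) (h1 : φ (z ^ m) w = w) (h2 : φ (z ^ p) w = w) :
    φ z w = w := by
  have hcop : Nat.Coprime m p := ((Nat.Prime.coprime_iff_not_dvd hp).mpr (fun h => by have := Nat.le_of_dvd hm0 h; omega)).symm
  have hb := Nat.gcd_eq_gcd_ab m p
  rw [hcop] at hb
  have hz : z = (z ^ m) ^ (Nat.gcdA m p) * (z ^ p) ^ (Nat.gcdB m p) := by
    rw [← zpow_natCast z m, ← zpow_natCast z p, ← zpow_mul, ← zpow_mul, ← zpow_add, ← hb]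
    simp
  have f1 := (AB1a_mem_fix φ (z ^ m) w).mpr h1
  have f2 := (AB1a_mem_fix φ (z ^ p) w).mpr h2
  rw [hz, map_mul, MulAut.mul_apply,
    f2 _ (Subgroup.zpow_mem _ (Subgroup.mem_zpowers _) _),
    f1 _ (Subgroup.zpow_mem _ (Subgroup.mem_zpowers _) _)]

/-- Independence of the fixed point groups of `x z^i` when `z` acts fixed point freely. -/
theorem ab1a (p : ℕ) [Fact p.Prime] {P W : Type*} [Group P] [Fintype P] [CommGroup W] [Finite W]
    (hcop : (Nat.card W).Coprime p) (φ : P →* MulAut W) (K : Subgroup W) (hK : ∀ x, ∀ v ∈ K, φ x v ∈ K) (z : P)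
    (hz1 : ∀ x, ∀ v ∈ K, φ z (φ x v) = φ x (φ z v)) (hz2 : ∀ v ∈ K, φ (z ^ p) v = v)
    (hz0 : K ⊓ FixSub φ (Subgroup.zpowers z) = ⊥) (x : P) :
    ∏ i ∈ Finset.range p, Nat.card ↥(K ⊓ FixSub φ (Subgroup.zpowers (x * z ^ i))) ≤ Nat.card ↥K := by
  classical
  have hp : p.Prime := Fact.out
  -- powers of z commute with everything on K
  have hcomm : ∀ (m : ℕ) (y : P), ∀ v ∈ K, φ (z ^ m) (φ y v) = φ y (φ (z ^ m) v) := by
    intro m
    induction m with
    | zero => intro y v _; simp
    | succ m ih =>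
      intro y v hv
      rw [pow_succ, map_mul, MulAut.mul_apply, MulAut.mul_apply, hz1 y v hv, ih y _ (hK z v hv)]
  have hform : ∀ (i n : ℕ), ∀ v ∈ K,
      φ (x * z ^ i) (φ (x * z ^ n) v) = φ x (φ x (φ (z ^ (i + n)) v)) := by
    intro i n v hv
    have h1 : φ (z ^ i) (φ (z ^ n) v) = φ (z ^ (i + n)) v := by
      rw [pow_add, map_mul, MulAut.mul_apply]
    rw [map_mul, map_mul, MulAut.mul_apply, MulAut.mul_apply, hcomm i x _ (hK _ v hv), h1]
  have hcomm2 : ∀ (i n : ℕ), ∀ v ∈ K,
      φ (x * z ^ i) (φ (x * z ^ n) v) = φ (x * z ^ n) (φ (x * z ^ i) v) := by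
    intro i n v hv
    rw [hform i n v hv, hform n i v hv, add_comm]
  have hfix1 : ∀ w ∈ K, φ z w = w → w = 1 := by
    intro w hw h
    have : w ∈ K ⊓ FixSub φ (Subgroup.zpowers z) := ⟨hw, (AB1a_mem_fix φ z w).mpr h⟩
    rw [hz0] at this
    exact this
  -- independence
  have hind : ∀ n : ℕ, n ≤ p → ∀ u : ℕ → W, (∀ i < n, u i ∈ K ∧ φ (x * z ^ i) (u i) = u i) →
      ∏ i ∈ Finset.range n, u i = 1 → ∀ i < n, u i = 1 := by
    intro n
    induction n with
    | zero => intro _ u _ _ i hi; omega
    | succ n ih =>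
      intro hn u hu hprod
      have hun := hu n (Nat.lt_succ_self n)
      rw [Finset.prod_range_succ] at hprod
      have hprod' : ∏ i ∈ Finset.range n, u i = (u n)⁻¹ := eq_inv_of_mul_eq_one_left hprod
      have h1 : ∀ i < n, (u i)⁻¹ * φ (x * z ^ n) (u i) = 1 := by
        apply ih (by omega) (fun i => (u i)⁻¹ * φ (x * z ^ n) (u i))
        · intro i hi
          have hui := hu i (by omega)
          refine ⟨K.mul_mem (K.inv_mem hui.1) (hK _ _ hui.1), ?_⟩
          rw [map_mul, map_inv, hcomm2 i n _ hui.1, hui.2]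
        · rw [Finset.prod_mul_distrib, Finset.prod_inv_distrib, ← map_prod, hprod', map_inv, hun.2]
          simp
      have h2 : ∀ i < n, u i = 1 := by
        intro i hi
        have hui := hu i (by omega)
        have h3 : φ (x * z ^ n) (u i) = u i := by
          have := h1 i hi
          rwa [inv_mul_eq_one, eq_comm] at this
        have h4 : φ (z ^ n) (u i) = φ (z ^ i) (u i) := by
          apply (φ x).injective
          rw [← MulAut.mul_apply, ← MulAut.mul_apply, ← map_mul, ← map_mul, h3, hui.2]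
        have h5 : φ (z ^ (n - i)) (u i) = u i := by
          apply (φ (z ^ i)).injective
          rw [← MulAut.mul_apply, ← map_mul, ← pow_add, Nat.add_sub_cancel' hi.le, h4]
        exact hfix1 _ hui.1 (AB1a_fix φ p hp z (u i) (n - i) (by omega) (by omega) h5 (hz2 _ hui.1))
      intro i hi
      rcases Nat.lt_succ_iff_lt_or_eq.mp hi with h | h
      · exact h2 i h
      · subst h
        rw [Finset.prod_eq_one (fun j hj => h2 j (Finset.mem_range.mp hj)), one_mul] at hprod
        exact hprod
  -- the product map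
  let B : Fin p → Subgroup W := fun i => K ⊓ FixSub φ (Subgroup.zpowers (x * z ^ (i : ℕ)))
  let F : (∀ i : Fin p, ↥(B i)) →* ↥K :=
    { toFun := fun u => ⟨∏ i, (u i : W), Subgroup.prod_mem _ (fun i _ => (u i).2.1)⟩
      map_one' := by
        apply Subtype.ext
        simp
      map_mul' := by
        intro u v
        apply Subtype.ext
        simp [Finset.prod_mul_distrib] }
  have hF : Function.Injective F := by
    rw [injective_iff_map_eq_one]
    intro u hu
    have hu' : ∏ i, (u i : W) = 1 := congrArg Subtype.val hu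
    let u' : ℕ → W := fun i => if h : i < p then (u ⟨i, h⟩ : W) else 1
    have hu'' : ∀ i : Fin p, u' i = (u i : W) := by
      intro i
      simp [u', i.2]
    have h1 : ∏ i ∈ Finset.range p, u' i = 1 := by
      rw [← Fin.prod_univ_eq_prod_range u' p]
      simp only [hu'']
      exact hu'
    have h2 := hind p le_rfl u' (by
      intro i hi
      have h3 : u' i = (u ⟨i, hi⟩ : W) := hu'' ⟨i, hi⟩
      rw [h3]
      exact ⟨(u ⟨i, hi⟩).2.1, (AB1a_mem_fix φ _ _).mp (u ⟨i, hi⟩).2.2⟩) h1
    funext i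
    apply Subtype.ext
    rw [← hu'' i]
    exact h2 i i.2
  have hcard := Nat.card_le_card_of_injective F hF
  rw [Nat.card_pi] at hcard
  rw [Finset.prod_range]
  exact hcard

end Cfsg.Agent.Lib.Helper82.Gh
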