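import Mathlib
import Cfsg.Agent.Lib.Helper82.Gh.Defs
import Cfsg.Agent.Lib.Helper82.Gh.AB1a

set_option autoImplicit false

namespace Cfsg.Agent.Lib.Helper82.Gh

theorem ab1 (p : ℕ) [Fact p.Prime] {P W : Type*} [Group P] [Fintype P] [CommGroup W] [Finite W]
    (hcop : (Nat.card W).Coprime p) (φ : P →* MulAut W) (K : Subgroup W) (hK : ∀ x, ∀ v ∈ K, φ x v ∈ K) (z : P)
    (hz1 : ∀ x, ∀ v ∈ K, φ z (φ x v) = φ x (φ z v)) (hz2 : ∀ v ∈ K, φ (z ^ p) v = v)
    (hz0 : K ⊓ FixSub φ (Subgroup.zpowers z) = ⊥) :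
    (∏ x : P, Nat.card ↥(K ⊓ FixSub φ (Subgroup.zpowers x))) ^ p ≤ Nat.card ↥K ^ Fintype.card P := by
  set c : P → ℕ := fun x => Nat.card ↥(K ⊓ FixSub φ (Subgroup.zpowers x)) with hc
  calc (∏ x : P, c x) ^ p = ∏ _i ∈ Finset.range p, ∏ x : P, c x := by
        rw [Finset.prod_const, Finset.card_range]
    _ = ∏ i ∈ Finset.range p, ∏ x : P, c (x * z ^ i) := by
        apply Finset.prod_congr rfl
        intro i _
        exact (Equiv.prod_comp (Equiv.mulRight (z ^ i)) c).symm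
    _ = ∏ x : P, ∏ i ∈ Finset.range p, c (x * z ^ i) := Finset.prod_comm
    _ ≤ ∏ _x : P, Nat.card ↥K :=
        Finset.prod_le_prod' (fun x _ => ab1a p hcop φ K hK z hz1 hz2 hz0 x)
    _ = Nat.card ↥K ^ Fintype.card P := by
        rw [Finset.prod_const, Finset.card_univ]

end Cfsg.Agent.Lib.Helper82.Gh
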