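import Mathlib
import Cfsg.Agent.Lib.Helper82.Gh.Defs

set_option autoImplicit false

namespace Cfsg.Agent.Lib.Helper82.Gh

theorem DEC_mem_fix {P W : Type*} [Group P] [Group W] (φ : P →* MulAut W) (g : P) (v : W) :
    v ∈ FixSub φ (Subgroup.zpowers g) ↔ φ g v = v := by
  constructor
  · intro h
    exact h g (Subgroup.mem_zpowers g)
  · intro h
    let S : Subgroup P :=
      { carrier := {x | φ x v = v}
        mul_mem' := by
          intro a b ha hb
          change φ (a * b) v = v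
          rw [map_mul, MulAut.mul_apply, hb, ha]
        one_mem' := by
          change φ 1 v = v
          rw [map_one, MulAut.one_apply]
        inv_mem' := by
          intro a ha
          change φ a⁻¹ v = v
          have ha' : φ a v = v := ha
          calc φ a⁻¹ v = φ a⁻¹ (φ a v) := by rw [ha']
            _ = v := by rw [← MulAut.mul_apply, ← map_mul, inv_mul_cancel, map_one, MulAut.one_apply] }
    have hS : Subgroup.zpowers g ≤ S := by
      rw [Subgroup.zpowers_le]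
      exact h
    intro x hx
    exact hS hx

theorem DEC_tele {P W : Type*} [Group P] [CommGroup W] (φ : P →* MulAut W) (z : P) (v : W) (n : ℕ) :
    ∏ k ∈ Finset.range n, φ (z ^ k) (v⁻¹ * φ z v) = v⁻¹ * φ (z ^ n) v := by
  induction n with
  | zero => simp
  | succ n ih =>
    rw [Finset.prod_range_succ, ih, map_mul, map_inv, ← MulAut.mul_apply, ← map_mul, ← pow_succ]
    rw [mul_assoc, mul_inv_cancel_left]

theorem DEC_pow_eq_one {W : Type*} [Group W] [Finite W] {p : ℕ} (hcop : (Nat.card W).Coprime p)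
    {w : W} (h : w ^ p = 1) : w = 1 := by
  have h1 := (powCoprime hcop).left_inv w
  have h2 : (w ^ p) ^ ((Nat.card W).gcdB p) = w := h1
  rw [h, one_zpow] at h2
  exact h2.symm

/-- Fitting decomposition `K = C_K(z) × [K,z]`. -/
theorem dec (p : ℕ) [Fact p.Prime] {P W : Type*} [Group P] [CommGroup W] [Finite W]
    (hcop : (Nat.card W).Coprime p) (φ : P →* MulAut W) (K : Subgroup W)
    (hK : ∀ x, ∀ v ∈ K, φ x v ∈ K) (z : P)
    (hz1 : ∀ x, ∀ v ∈ K, φ z (φ x v) = φ x (φ z v)) (hz2 : ∀ v ∈ K, φ (z ^ p) v = v) :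
    ∃ K1 : Subgroup W, K1 ≤ K ∧ (∀ x, ∀ v ∈ K1, φ x v ∈ K1) ∧
      K1 ⊓ FixSub φ (Subgroup.zpowers z) = ⊥ ∧
      ∀ H : Subgroup P, Nat.card ↥(K ⊓ FixSub φ H) =
        Nat.card ↥((K ⊓ FixSub φ (Subgroup.zpowers z)) ⊓ FixSub φ H) * Nat.card ↥(K1 ⊓ FixSub φ H) := by
  classical
  let δ : W →* W :=
    { toFun := fun w => w⁻¹ * φ z w
      map_one' := by simp
      map_mul' := by
        intro a b
        rw [map_mul, mul_inv]
        exact mul_mul_mul_comm _ _ _ _ }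
  have hδ : ∀ w, δ w = w⁻¹ * φ z w := fun _ => rfl
  set K0 : Subgroup W := K ⊓ FixSub φ (Subgroup.zpowers z) with hK0
  let K1 : Subgroup W := K.map δ
  have hK1K : K1 ≤ K := by
    rintro _ ⟨v, hv, rfl⟩
    rw [hδ]
    exact K.mul_mem (K.inv_mem hv) (hK z v hv)
  have hK1inv : ∀ x, ∀ v ∈ K1, φ x v ∈ K1 := by
    rintro x _ ⟨v, hv, rfl⟩
    refine ⟨φ x v, hK x v hv, ?_⟩
    rw [hδ, hδ, map_mul, map_inv, hz1 x v hv]
  have hK0inv : ∀ x, ∀ v ∈ K0, φ x v ∈ K0 := by
    rintro x v ⟨hv, hv2⟩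
    have hv2' : φ z v = v := (DEC_mem_fix φ z v).mp hv2
    refine ⟨hK x v hv, (DEC_mem_fix φ z _).mpr ?_⟩
    rw [hz1 x v hv, hv2']
  have hdisj : K1 ⊓ FixSub φ (Subgroup.zpowers z) = ⊥ := by
    rw [eq_bot_iff]
    rintro w ⟨⟨v, hv, rfl⟩, hw2⟩
    rw [Subgroup.mem_bot]
    apply DEC_pow_eq_one hcop
    have h1 := DEC_tele φ z v p
    rw [hz2 v hv, inv_mul_cancel] at h1
    rw [← h1, ← hδ]
    have h2 : ∀ k ∈ Finset.range p, φ (z ^ k) (δ v) = δ v := by
      intro k _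
      exact hw2 (z ^ k) (Subgroup.pow_mem _ (Subgroup.mem_zpowers z) k)
    rw [Finset.prod_congr rfl h2, Finset.prod_const, Finset.card_range]
  have hdisj' : ∀ w, w ∈ K0 → w ∈ K1 → w = 1 := by
    intro w h0 h1
    have : w ∈ K1 ⊓ FixSub φ (Subgroup.zpowers z) := ⟨h1, h0.2⟩
    rw [hdisj] at this
    exact this
  -- every element of K is a product
  have hprod : ∀ v ∈ K, ∃ a ∈ K0, ∃ b ∈ K1, a * b = v := by
    intro v hv
    have hT0 : (∏ k ∈ Finset.range p, φ (z ^ k) v) ∈ K0 := by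
      refine ⟨Subgroup.prod_mem _ (fun k _ => hK _ v hv), (DEC_mem_fix φ z _).mpr ?_⟩
      rw [map_prod]
      have h1 : ∀ k ∈ Finset.range p, φ z (φ (z ^ k) v) = φ (z ^ (k + 1)) v := by
        intro k _
        rw [← MulAut.mul_apply, ← map_mul, ← pow_succ']
      rw [Finset.prod_congr rfl h1]
      have h2 := Finset.prod_range_succ' (fun k => φ (z ^ k) v) p
      have h3 := Finset.prod_range_succ (fun k => φ (z ^ k) v) p
      rw [h3] at h2
      simp only [hz2 v hv, pow_zero, map_one, MulAut.one_apply] at h2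
      exact (mul_right_cancel h2).symm
    have hT1 : ∀ n : ℕ, v ^ n * (∏ k ∈ Finset.range n, φ (z ^ k) v)⁻¹ ∈ K1 := by
      intro n
      induction n with
      | zero => simp
      | succ n ih =>
        have h1 : v * (φ (z ^ n) v)⁻¹ ∈ K1 := by
          have h2 : (v⁻¹ * φ (z ^ n) v) ∈ K1 := by
            rw [← DEC_tele φ z v n]
            exact Subgroup.prod_mem _ (fun k _ => hK1inv _ _ ⟨v, hv, rfl⟩)
          have h3 := K1.inv_mem h2
          rwa [mul_inv, inv_inv] at h3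
        have h4 := K1.mul_mem ih h1
        rw [Finset.prod_range_succ, pow_succ, mul_inv]
        convert h4 using 1
        exact mul_mul_mul_comm _ _ _ _
    have hS : v ^ p ∈ K0 ⊔ K1 := by
      rw [Subgroup.mem_sup]
      exact ⟨_, hT0, _, hT1 p, by rw [mul_comm (v ^ p), mul_inv_cancel_left]⟩
    have hv' : (v ^ p) ^ ((Nat.card W).gcdB p) = v := (powCoprime hcop).left_inv v
    have hS' : v ∈ K0 ⊔ K1 := by
      rw [← hv']
      exact Subgroup.zpow_mem _ hS _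
    rw [Subgroup.mem_sup] at hS'
    exact hS'
  refine ⟨K1, hK1K, hK1inv, hdisj, fun H => ?_⟩
  rw [← Nat.card_prod]
  symm
  refine Nat.card_congr (Equiv.ofBijective
    (fun ab : ↥(K0 ⊓ FixSub φ H) × ↥(K1 ⊓ FixSub φ H) =>
      (⟨ab.1.1 * ab.2.1, K.mul_mem ab.1.2.1.1 (hK1K ab.2.2.1),
        (FixSub φ H).mul_mem ab.1.2.2 ab.2.2.2⟩ : ↥(K ⊓ FixSub φ H))) ⟨?_, ?_⟩)
  · rintro ⟨⟨a, ha⟩, ⟨b, hb⟩⟩ ⟨⟨a', ha'⟩, ⟨b', hb'⟩⟩ h
    have h1 : a * b = a' * b' := congrArg Subtype.val h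
    have h2 : a'⁻¹ * a = b' * b⁻¹ := by
      rw [inv_mul_eq_iff_eq_mul, ← mul_assoc, eq_mul_inv_iff_mul_eq]
      exact h1
    have h3 : a'⁻¹ * a = 1 :=
      hdisj' _ (K0.mul_mem (K0.inv_mem ha'.1) ha.1) (h2 ▸ K1.mul_mem hb'.1 (K1.inv_mem hb.1))
    have h4 : a = a' := by
      rw [inv_mul_eq_one] at h3
      exact h3.symm
    subst h4
    have h5 : b = b' := mul_left_cancel h1
    subst h5
    rfl
  · rintro ⟨v, hvK, hvH⟩
    obtain ⟨a, ha, b, hb, rfl⟩ := hprod v hvK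
    have key : ∀ h ∈ H, φ h a = a ∧ φ h b = b := by
      intro h hh
      have h1 : φ h a * φ h b = a * b := by rw [← map_mul]; exact hvH h hh
      have h2 : a⁻¹ * φ h a = b * (φ h b)⁻¹ := by
        rw [inv_mul_eq_iff_eq_mul, ← mul_assoc, eq_mul_inv_iff_mul_eq]
        exact h1
      have h3 : a⁻¹ * φ h a = 1 :=
        hdisj' _ (K0.mul_mem (K0.inv_mem ha) (hK0inv h a ha))
          (h2 ▸ K1.mul_mem hb (K1.inv_mem (hK1inv h b hb)))
      have h4 : φ h a = a := by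
        rw [inv_mul_eq_one] at h3
        exact h3.symm
      rw [h4] at h1
      exact ⟨h4, mul_left_cancel h1⟩
    exact ⟨⟨⟨a, ha, fun h hh => (key h hh).1⟩, ⟨b, hb, fun h hh => (key h hh).2⟩⟩, rfl⟩

end Cfsg.Agent.Lib.Helper82.Gh
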