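import Mathlib
import Cfsg.Agent.Lib.Helper82.Gh.Defs

set_option autoImplicit false

namespace Cfsg.Agent.Lib.Helper82.Gh

/-- A central element of order `p` modulo the kernel of the action on `K`. -/
theorem pz (p : ℕ) [Fact p.Prime] {P W : Type*} [Group P] [Finite P] [Group W]
    (hP : IsPGroup p P) (φ : P →* MulAut W) (K : Subgroup W) (hK : ∀ x, ∀ v ∈ K, φ x v ∈ K)
    (hnt : ∃ x, ∃ v ∈ K, φ x v ≠ v) :
    ∃ z : P, (∀ x, ∀ v ∈ K, φ z (φ x v) = φ x (φ z v)) ∧ (∀ v ∈ K, φ (z ^ p) v = v) ∧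
      ∃ v ∈ K, φ z v ≠ v := by
  classical
  let ψ := resAct φ K hK
  have hR : IsPGroup p ψ.range := hP.of_surjective ψ.rangeRestrict ψ.rangeRestrict_surjective
  haveI : Finite ψ.range := Finite.of_surjective ψ.rangeRestrict ψ.rangeRestrict_surjective
  haveI : Nontrivial ψ.range := by
    obtain ⟨x, v, hv, hne⟩ := hnt
    refine ⟨⟨⟨ψ x, x, rfl⟩, 1, ?_⟩⟩
    intro h
    apply hne
    have h1 : ψ x = 1 := congrArg Subtype.val h
    have h2 := congrArg (fun f : MulAut K => ((f ⟨v, hv⟩ : K) : W)) h1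
    exact h2
  haveI := hR.center_nontrivial
  obtain ⟨n, hn⟩ := IsPGroup.iff_card.mp (hR.to_subgroup (Subgroup.center ψ.range))
  have hn0 : n ≠ 0 := by
    rintro rfl
    have := Finite.one_lt_card (α := Subgroup.center ψ.range)
    rw [hn, pow_zero] at this
    omega
  have hdvd : p ∣ Nat.card (Subgroup.center ψ.range) := by
    rw [hn]; exact dvd_pow_self p hn0
  obtain ⟨c, hc⟩ := exists_prime_orderOf_dvd_card' p hdvd
  obtain ⟨z, hz⟩ : ∃ z, ψ z = (c.1.1 : MulAut K) := c.1.2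
  have hcomm : ∀ x, ψ x * ψ z = ψ z * ψ x := by
    intro x
    have h1 := (Subgroup.mem_center_iff.mp c.2) ⟨ψ x, x, rfl⟩
    have h2 := congrArg Subtype.val h1
    rw [hz]
    exact h2
  have hpow : ψ z ^ p = 1 := by
    have h1 : c ^ p = 1 := by rw [← hc]; exact pow_orderOf_eq_one c
    have h2 := congrArg (fun y : Subgroup.center ψ.range => (y.1.1 : MulAut K)) h1
    rw [hz]
    exact h2
  have hne : ψ z ≠ 1 := by
    intro h
    have h1 : c = 1 := by
      apply Subtype.ext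
      apply Subtype.ext
      rw [← hz, h]; rfl
    rw [h1, orderOf_one] at hc
    exact (Fact.out : p.Prime).one_lt.ne hc
  refine ⟨z, ?_, ?_, ?_⟩
  · intro x v hv
    have h1 := congrArg (fun f : MulAut K => ((f ⟨v, hv⟩ : K) : W)) (hcomm x)
    exact h1.symm
  · intro v hv
    have h0 : ψ (z ^ p) = 1 := by rw [map_pow, hpow]
    have h1 := congrArg (fun f : MulAut K => ((f ⟨v, hv⟩ : K) : W)) h0
    exact h1
  · by_contra hcon
    push Not at hcon
    apply hne
    ext v
    exact hcon v.1 v.2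

end Cfsg.Agent.Lib.Helper82.Gh
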