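import Mathlib
import Cfsg.Agent.Lib.Helper82.Gh.Defs
import Cfsg.Agent.Lib.Helper82.Gh.PZ
import Cfsg.Agent.Lib.Helper82.Gh.DEC
import Cfsg.Agent.Lib.Helper82.Gh.AB1

set_option autoImplicit false

namespace Cfsg.Agent.Lib.Helper82.Gh

theorem ABK_fix_iff {P W : Type*} [Group P] [Group W] (φ : P →* MulAut W) (z : P) (v : W) :
    v ∈ FixSub φ (Subgroup.zpowers z) ↔ φ z v = v := by
  constructor
  · intro h
    exact h z (Subgroup.mem_zpowers z)
  · intro h
    let S : Subgroup P :=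
      { carrier := {g | φ g v = v}
        mul_mem' := by
          intro a b ha hb
          have ha' : φ a v = v := ha
          have hb' : φ b v = v := hb
          change φ (a * b) v = v
          rw [map_mul, MulAut.mul_apply, hb', ha']
        one_mem' := by
          change φ 1 v = v
          rw [map_one, MulAut.one_apply]
        inv_mem' := by
          intro a ha
          have ha' : φ a v = v := ha
          change φ a⁻¹ v = v
          conv_lhs => rw [← ha']
          rw [← MulAut.mul_apply, ← map_mul, inv_mul_cancel, map_one, MulAut.one_apply] }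
    exact fun g hg => (Subgroup.zpowers_le.2 (show z ∈ S from h)) hg

theorem ABK_fix_bot {P W : Type*} [Group P] [Group W] (φ : P →* MulAut W) : FixSub φ ⊥ = ⊤ :=
  eq_top_iff.2 (fun v _ h hh => by rw [Subgroup.mem_bot.1 hh, map_one, MulAut.one_apply])

/-- `(+)` for invariant subgroups of an abelian `p'`-group. -/
theorem ab' (p : ℕ) [Fact p.Prime] {P W : Type*} [Group P] [Fintype P] [CommGroup W] [Finite W]
    (hP : IsPGroup p P) (hcop : (Nat.card W).Coprime p) (φ : P →* MulAut W) (K : Subgroup W)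
    (hK : ∀ x, ∀ v ∈ K, φ x v ∈ K) : PlusK p φ K := by
  induction' hn : Nat.card K using Nat.strong_induction_on with n ih generalizing K
  have hp1 : 1 ≤ p := (Fact.out : p.Prime).one_le
  by_cases hnt : ∃ x, ∃ v ∈ K, φ x v ≠ v
  · obtain ⟨z, hz1, hz2, v0, hv0K, hv0⟩ := pz p hP φ K hK hnt
    set K0 : Subgroup W := K ⊓ FixSub φ (Subgroup.zpowers z) with hK0def
    have hK0 : ∀ x, ∀ v ∈ K0, φ x v ∈ K0 := by
      intro x v hv
      obtain ⟨hvK, hvz⟩ := Subgroup.mem_inf.1 hv
      refine Subgroup.mem_inf.2 ⟨hK x v hvK, ?_⟩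
      rw [ABK_fix_iff] at hvz ⊢
      rw [hz1 x v hvK, hvz]
    have hlt : Nat.card K0 < n := by
      rw [← hn]
      by_contra hcon
      have h1 : K0 = K := Subgroup.eq_of_le_of_card_ge inf_le_left (not_lt.1 hcon)
      have h2 : v0 ∈ K0 := h1 ▸ hv0K
      exact hv0 ((ABK_fix_iff φ z v0).1 (Subgroup.mem_inf.1 h2).2)
    have IH : PlusK p φ K0 := ih _ hlt K0 hK0 rfl
    obtain ⟨K1, hK1K, hK1inv, hK1z, hdec⟩ := dec p hcop φ K hK z hz1 hz2
    have hab1 := ab1 p hcop φ K1 hK1inv z (fun x v hv => hz1 x v (hK1K hv))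
      (fun v hv => hz2 v (hK1K hv)) hK1z
    have e0 := hdec ⊥
    rw [ABK_fix_bot, inf_top_eq, inf_top_eq, inf_top_eq] at e0
    have e1 := hdec ⊤
    have hbot : K1 ⊓ FixSub φ ⊤ = ⊥ := by
      rw [eq_bot_iff, ← hK1z]
      exact inf_le_inf_left _ (fun v hv h _ => hv h (Subgroup.mem_top h))
    rw [hbot, Subgroup.card_bot, mul_one] at e1
    unfold PlusK at IH ⊢
    rw [e0, e1]
    calc (∏ x : P, Nat.card ↥(K ⊓ FixSub φ (Subgroup.zpowers x))) ^ p
        = ((∏ x : P, Nat.card ↥(K0 ⊓ FixSub φ (Subgroup.zpowers x))) *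
            (∏ x : P, Nat.card ↥(K1 ⊓ FixSub φ (Subgroup.zpowers x)))) ^ p := by
          rw [← Finset.prod_mul_distrib]
          congr 1
          exact Finset.prod_congr rfl (fun x _ => hdec _)
      _ = (∏ x : P, Nat.card ↥(K0 ⊓ FixSub φ (Subgroup.zpowers x))) ^ p *
            (∏ x : P, Nat.card ↥(K1 ⊓ FixSub φ (Subgroup.zpowers x))) ^ p := mul_pow _ _ _
      _ ≤ (Nat.card ↥K0 ^ Fintype.card P *
            Nat.card ↥(K0 ⊓ FixSub φ ⊤) ^ (Fintype.card P * (p - 1))) *
            Nat.card ↥K1 ^ Fintype.card P := Nat.mul_le_mul IH hab1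
      _ = (Nat.card ↥K0 * Nat.card ↥K1) ^ Fintype.card P *
            Nat.card ↥(K0 ⊓ FixSub φ ⊤) ^ (Fintype.card P * (p - 1)) := by
          rw [mul_pow]; ring
  · push Not at hnt
    have hfix : ∀ H : Subgroup P, K ⊓ FixSub φ H = K := fun H =>
      inf_eq_left.2 (fun v hv h _ => hnt h v hv)
    unfold PlusK
    simp only [hfix, Finset.prod_const, Finset.card_univ]
    apply le_of_eq
    rw [← pow_mul, ← pow_add]
    congr 1
    obtain ⟨r, rfl⟩ : ∃ r, p = r + 1 := ⟨p - 1, by omega⟩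
    rw [Nat.add_sub_cancel]
    ring

end Cfsg.Agent.Lib.Helper82.Gh
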