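import Mathlib
import Cfsg.Agent.Lib.Helper82.Gh.Defs
import Cfsg.Agent.Lib.Helper82.Gh.ABK

set_option autoImplicit false

namespace Cfsg.Agent.Lib.Helper82.Gh

/-- `(+)` for an abelian `p'`-group. -/
theorem ab (p : ℕ) [Fact p.Prime] {P W : Type*} [Group P] [Fintype P] [CommGroup W] [Finite W]
    (hP : IsPGroup p P) (hcop : (Nat.card W).Coprime p) (φ : P →* MulAut W) : PlusT p φ := by
  have h := ab' p hP hcop φ ⊤ (fun _ _ _ => Subgroup.mem_top _)
  unfold PlusK at h
  unfold PlusT
  simp only [top_inf_eq, Subgroup.card_top] at h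
  exact h

end Cfsg.Agent.Lib.Helper82.Gh
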