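import Mathlib
import Cfsg.Agent.Lib.Helper82.Gh.Defs

set_option autoImplicit false

namespace Cfsg.Agent.Lib.Helper82.Gh

theorem comm_inv {P V : Type*} [Group P] [Group V] (φ : P →* MulAut V) :
    ∀ x, ∀ v ∈ commutator V, φ x v ∈ commutator V := by
  intro x v hv
  have h : (commutator V).Characteristic := inferInstance
  have h2 := (Subgroup.characteristic_iff_map_le.mp h) (φ x)
  exact h2 ⟨v, hv, rfl⟩

/-- surjectivity of fixed points onto fixed points of the abelianization -/
theorem c1_surj (p : ℕ) [Fact p.Prime] {P V : Type*} [Group P] [Finite P] [Group V] [Finite V]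
    (hP : IsPGroup p P) (hcop : (Nat.card V).Coprime p) (φ : P →* MulAut V) (H : Subgroup P)
    (w : Abelianization V) (hw : w ∈ FixSub (abAct φ) H) :
    ∃ u ∈ FixSub φ H, Abelianization.of u = w := by
  obtain ⟨v0, rfl⟩ := QuotientGroup.mk_surjective w
  let Ω := {u : V // Abelianization.of u = Abelianization.of v0}
  letI : MulAction ↥H Ω :=
    { smul := fun h u => ⟨φ h u.1, by
        rw [← abAct_of, u.2]
        exact hw h.1 h.2⟩
      one_smul := by
        intro u
        apply Subtype.ext
        show φ ((1 : ↥H) : P) u.1 = u.1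
        rw [Subgroup.coe_one, map_one, MulAut.one_apply]
      mul_smul := by
        intro a b u
        apply Subtype.ext
        show φ ((a * b : ↥H) : P) u.1 = φ a (φ b u.1)
        rw [Subgroup.coe_mul, map_mul, MulAut.mul_apply] }
  have hcard : Nat.card Ω = Nat.card ↥(commutator V) := by
    apply Nat.card_congr
    refine ⟨fun u => ⟨v0⁻¹ * u.1, ?_⟩, fun k => ⟨v0 * k.1, ?_⟩, ?_, ?_⟩
    · exact QuotientGroup.eq.mp u.2.symm
    · symm
      apply QuotientGroup.eq.mpr
      rw [inv_mul_cancel_left]
      exact k.2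
    · intro u
      apply Subtype.ext
      simp
    · intro k
      apply Subtype.ext
      simp
  have hnd : ¬ p ∣ Nat.card Ω := by
    intro hd
    rw [hcard] at hd
    have h1 : p ∣ Nat.card V := hd.trans (Subgroup.card_subgroup_dvd_card _)
    have h2 : p ∣ Nat.gcd (Nat.card V) p := Nat.dvd_gcd h1 dvd_rfl
    rw [hcop] at h2
    exact (Fact.out : p.Prime).one_lt.ne' (Nat.dvd_one.mp h2)
  obtain ⟨u, hu⟩ := (hP.to_subgroup H).nonempty_fixed_point_of_prime_not_dvd_card Ω hnd
  refine ⟨u.1, ?_, u.2⟩
  intro h hh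
  exact congrArg Subtype.val (hu ⟨h, hh⟩)

/-- Coprime action: fixed points are multiplicative along `V' ≤ V`. -/
theorem c1 (p : ℕ) [Fact p.Prime] {P V : Type*} [Group P] [Finite P] [Group V] [Finite V]
    (hP : IsPGroup p P) (hcop : (Nat.card V).Coprime p) (φ : P →* MulAut V) (H : Subgroup P) :
    Nat.card ↥(FixSub φ H) =
      Nat.card ↥(FixSub (resAct φ (commutator V) (comm_inv φ)) H) * Nat.card ↥(FixSub (abAct φ) H) := by
  let π : ↥(FixSub φ H) →* ↥(FixSub (abAct φ) H) :=
    (Abelianization.of.comp (FixSub φ H).subtype).codRestrict (FixSub (abAct φ) H) (by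
      intro v h hh
      show abAct φ h (Abelianization.of (v : V)) = Abelianization.of (v : V)
      rw [abAct_of, v.2 h hh])
  have hsurj : Function.Surjective π := by
    intro w
    obtain ⟨u, hu, e⟩ := c1_surj p hP hcop φ H w.1 w.2
    exact ⟨⟨u, hu⟩, Subtype.ext e⟩
  have h1 : Nat.card ↥π.ker * Nat.card ↥(FixSub (abAct φ) H) = Nat.card ↥(FixSub φ H) := by
    have := Subgroup.card_mul_index π.ker
    rw [Subgroup.index_ker, MonoidHom.range_eq_top.mpr hsurj, Subgroup.card_top] at this
    exact this
  have h2 : Nat.card ↥π.ker = Nat.card ↥(FixSub φ H ⊓ commutator V) := by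
    rw [← Subgroup.card_map_of_injective (K := π.ker) (FixSub φ H).subtype_injective]
    congr 2
    ext v
    constructor
    · rintro ⟨u, hu, rfl⟩
      refine ⟨u.2, ?_⟩
      have : Abelianization.of (u : V) = 1 := congrArg Subtype.val (MonoidHom.mem_ker.mp hu)
      exact (QuotientGroup.eq_one_iff _).mp this
    · rintro ⟨h1, h2⟩
      refine ⟨⟨v, h1⟩, ?_, rfl⟩
      apply MonoidHom.mem_ker.mpr
      apply Subtype.ext
      exact (QuotientGroup.eq_one_iff _).mpr h2
  have h3 : Nat.card ↥(FixSub (resAct φ (commutator V) (comm_inv φ)) H)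
      = Nat.card ↥(FixSub φ H ⊓ commutator V) := by
    rw [← Subgroup.card_map_of_injective (K := FixSub (resAct φ (commutator V) (comm_inv φ)) H)
      (commutator V).subtype_injective]
    congr 2
    ext v
    constructor
    · rintro ⟨u, hu, rfl⟩
      refine ⟨?_, u.2⟩
      intro h hh
      exact congrArg Subtype.val (hu h hh)
    · rintro ⟨h1, h2⟩
      refine ⟨⟨v, h2⟩, ?_, rfl⟩
      intro h hh
      apply Subtype.ext
      exact h1 h hh
  rw [← h1, h2, h3]

end Cfsg.Agent.Lib.Helper82.Gh
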