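import Mathlib
import Cfsg.Agent.Lib.Helper82.Gh.Defs

set_option autoImplicit false

namespace Cfsg.Agent.Lib.Helper82.Gh

theorem g1_mem_smul {G : Type*} [Group G] (p : ℕ) (g y : G) (Q : Sylow p G) :
    g * y * g⁻¹ ∈ ((g • Q : Sylow p G) : Subgroup G) ↔ y ∈ (Q : Subgroup G) := by
  rw [Sylow.coe_subgroup_smul, Subgroup.mem_pointwise_smul_iff_inv_smul_mem,
    MulAut.smul_def, ← map_inv, MulAut.conj_apply]
  simp [mul_assoc]

/-- Double counting of the `p`-elements. -/
theorem g1 {G : Type*} [Group G] [Finite G] (p : ℕ) [Fact p.Prime] (P : Sylow p G)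
    [Fintype ↥(P : Subgroup G)] :
    (Nat.card {g : G // ∃ k : ℕ, orderOf g = p ^ k} : ℝ) =
      (Nat.card (Sylow p G) : ℝ) * ∑ x : ↥(P : Subgroup G),
        (1 : ℝ) / (Nat.card {Q : Sylow p G // Subgroup.zpowers (x : G) ≤ (Q : Subgroup G)} : ℝ) := by
  classical
  haveI : Fintype G := Fintype.ofFinite G
  haveI : Fintype (Sylow p G) := Fintype.ofFinite _
  set lam : G → ℕ := fun y => Nat.card {Q : Sylow p G // Subgroup.zpowers y ≤ (Q : Subgroup G)}
    with hlam
  have lam_eq : ∀ y, lam y = (Finset.univ.filter (fun Q : Sylow p G => y ∈ (Q : Subgroup G))).card := by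
    intro y
    simp only [hlam]
    rw [Nat.card_congr (Equiv.subtypeEquivRight
      (fun Q : Sylow p G => (Subgroup.zpowers_le (g := y) (H := (Q : Subgroup G))))),
      Nat.card_eq_fintype_card, Fintype.card_subtype]
  have lam_conj : ∀ g y, lam (g * y * g⁻¹) = lam y := by
    intro g y
    simp only [hlam]
    symm
    apply Nat.card_congr
    refine Equiv.subtypeEquiv (MulAction.toPerm g) ?_
    intro Q
    rw [Subgroup.zpowers_le, Subgroup.zpowers_le]
    exact (g1_mem_smul p g y Q).symm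
  set T : Sylow p G → ℝ := fun Q => ∑ y : G, if y ∈ (Q : Subgroup G) then 1 / (lam y : ℝ) else 0
    with hT
  have T_conj : ∀ (g : G) (Q : Sylow p G), T (g • Q) = T Q := by
    intro g Q
    simp only [hT]
    rw [← Equiv.sum_comp (MulAut.conj g).toEquiv]
    apply Finset.sum_congr rfl
    intro y _
    show (if g * y * g⁻¹ ∈ ((g • Q : Sylow p G) : Subgroup G) then 1 / (lam (g * y * g⁻¹) : ℝ) else 0) = _
    rw [lam_conj]
    simp only [g1_mem_smul]
  have T_const : ∀ Q, T Q = T P := by
    intro Q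
    obtain ⟨g, rfl⟩ := MulAction.exists_smul_eq G P Q
    exact T_conj g P
  have hP : ∑ x : ↥(P : Subgroup G), 1 / (lam x : ℝ) = T P := by
    simp only [hT]
    rw [← Finset.sum_filter]
    exact (Finset.sum_subtype (Finset.univ.filter (· ∈ (P : Subgroup G))) (by simp)
      (fun y => 1 / (lam y : ℝ))).symm
  have total : ∑ Q, T Q = (Nat.card (Sylow p G) : ℝ) * T P := by
    rw [Finset.sum_congr rfl (fun Q _ => T_const Q), Finset.sum_const, Finset.card_univ, nsmul_eq_mul,
      Nat.card_eq_fintype_card]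
  have swap : ∑ Q, T Q = ∑ y : G, if lam y ≠ 0 then (1 : ℝ) else 0 := by
    simp only [hT]
    rw [Finset.sum_comm]
    apply Finset.sum_congr rfl
    intro y _
    rw [← Finset.sum_filter, Finset.sum_const, ← lam_eq, nsmul_eq_mul]
    split_ifs with h
    · have : (lam y : ℝ) ≠ 0 := by exact_mod_cast h
      field_simp
    · have h' : lam y = 0 := by simpa using h
      rw [h']; simp
  have pel : ∀ y : G, (∃ k : ℕ, orderOf y = p ^ k) ↔ lam y ≠ 0 := by
    intro y
    constructor
    · rintro ⟨k, hk⟩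
      have h1 : IsPGroup p ↥(Subgroup.zpowers y) := IsPGroup.of_card (n := k) (by rw [Nat.card_zpowers, hk])
      obtain ⟨Q, hQ⟩ := h1.exists_le_sylow
      haveI : Nonempty {Q : Sylow p G // Subgroup.zpowers y ≤ (Q : Subgroup G)} := ⟨⟨Q, hQ⟩⟩
      exact Nat.card_pos.ne'
    · intro h
      have h1 : Nonempty {Q : Sylow p G // Subgroup.zpowers y ≤ (Q : Subgroup G)} := by
        by_contra hne
        rw [not_nonempty_iff] at hne
        exact h Nat.card_of_isEmpty
      obtain ⟨⟨Q, hQ⟩⟩ := h1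
      rw [Subgroup.zpowers_le] at hQ
      obtain ⟨k, hk⟩ := IsPGroup.iff_orderOf.mp Q.2 ⟨y, hQ⟩
      exact ⟨k, by rw [← hk, Subgroup.orderOf_mk]⟩
  have count : (Nat.card {g : G // ∃ k : ℕ, orderOf g = p ^ k} : ℝ)
      = ∑ y : G, if lam y ≠ 0 then (1 : ℝ) else 0 := by
    rw [Finset.sum_boole, Nat.card_eq_fintype_card, Fintype.card_subtype]
    congr 2
    ext y
    simp only [Finset.mem_filter, Finset.mem_univ, true_and]
    exact pel y
  rw [count, ← swap, total, ← hP]

end Cfsg.Agent.Lib.Helper82.Gh
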