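import Mathlib
import Cfsg.Agent.Lib.Helper82.Gh.Defs

set_option autoImplicit false

namespace Cfsg.Agent.Lib.Helper82.Gh

theorem ineq_amgm {ι : Type*} [Fintype ι] [Nonempty ι] (z : ι → ℝ) (hz : ∀ x, 0 < z x) :
    ∏ x, z x ≤ ((∑ x, z x) / (Fintype.card ι : ℝ)) ^ Fintype.card ι := by
  have hm : 0 < Fintype.card ι := Fintype.card_pos
  have hm' : (0 : ℝ) < (Fintype.card ι : ℝ) := by exact_mod_cast hm
  have h := Real.geom_mean_le_arith_mean_weighted Finset.univ (fun _ : ι => 1 / (Fintype.card ι : ℝ)) z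
    (fun _ _ => by positivity) (by
      rw [Finset.sum_const, Finset.card_univ, nsmul_eq_mul]
      field_simp) (fun x _ => (hz x).le)
  have h1 : (∏ x, z x ^ (1 / (Fintype.card ι : ℝ))) ^ Fintype.card ι = ∏ x, z x := by
    rw [← Finset.prod_pow]
    apply Finset.prod_congr rfl
    intro x _
    rw [← Real.rpow_natCast, ← Real.rpow_mul (hz x).le]
    rw [one_div, inv_mul_cancel₀ hm'.ne', Real.rpow_one]
  have h2 : ∑ x, 1 / (Fintype.card ι : ℝ) * z x = (∑ x, z x) / (Fintype.card ι : ℝ) := by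
    rw [← Finset.mul_sum]
    ring
  rw [← h1, ← h2]
  exact pow_le_pow_left₀ (Finset.prod_nonneg fun x _ => Real.rpow_nonneg (hz x).le _) h _

/-- AM-GM step. -/
theorem ineq {ι : Type*} [Fintype ι] [Nonempty ι] (p : ℕ) (hp : 1 ≤ p) (s0 sP : ℝ) (s : ι → ℝ)
    (h0 : 0 < s0) (hP : 0 < sP) (hs : ∀ x, 0 < s x)
    (h : (∏ x, s x) ^ p ≤ s0 ^ Fintype.card ι * sP ^ (Fintype.card ι * (p - 1))) :
    (Fintype.card ι : ℝ) ^ p * (s0 / sP) ^ (p - 1) ≤ (∑ x, s0 / s x) ^ p := by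
  obtain ⟨k, rfl⟩ : ∃ k, p = k + 1 := ⟨p - 1, by omega⟩
  simp only [Nat.add_sub_cancel] at h ⊢
  set m := Fintype.card ι with hm
  have hm0 : 0 < m := Fintype.card_pos
  have hm' : (0 : ℝ) < (m : ℝ) := by exact_mod_cast hm0
  set U := ∑ x, s0 / s x with hU
  set A := ∏ x, s x with hA
  have hA0 : 0 < A := Finset.prod_pos fun x _ => hs x
  have hU0 : 0 < U := Finset.sum_pos (fun x _ => div_pos h0 (hs x)) Finset.univ_nonempty
  have h1 : s0 ^ m / A ≤ (U / m) ^ m := by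
    have := ineq_amgm (fun x => s0 / s x) (fun x => div_pos h0 (hs x))
    rw [Finset.prod_div_distrib, Finset.prod_const, Finset.card_univ] at this
    exact this
  have h2 : ((s0 / sP) ^ k) ^ m ≤ ((U / m) ^ (k + 1)) ^ m := by
    calc ((s0 / sP) ^ k) ^ m = (s0 ^ m) ^ (k + 1) / (s0 ^ m * sP ^ (m * k)) := by
          rw [div_pow, div_pow, pow_succ, ← pow_mul, ← pow_mul, ← pow_mul, mul_comm k m]
          field_simp
      _ ≤ (s0 ^ m) ^ (k + 1) / A ^ (k + 1) := by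
          apply div_le_div_of_nonneg_left (by positivity) (by positivity) h
      _ = (s0 ^ m / A) ^ (k + 1) := by rw [div_pow]
      _ ≤ ((U / m) ^ m) ^ (k + 1) := pow_le_pow_left₀ (by positivity) h1 _
      _ = ((U / m) ^ (k + 1)) ^ m := by rw [← pow_mul, ← pow_mul, mul_comm]
  have h3 : (s0 / sP) ^ k ≤ (U / m) ^ (k + 1) :=
    le_of_pow_le_pow_left₀ hm0.ne' (by positivity) h2
  calc (m : ℝ) ^ (k + 1) * (s0 / sP) ^ k ≤ (m : ℝ) ^ (k + 1) * (U / m) ^ (k + 1) :=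
        mul_le_mul_of_nonneg_left h3 (by positivity)
    _ = U ^ (k + 1) := by
        rw [← mul_pow, mul_div_cancel₀ _ hm'.ne']

end Cfsg.Agent.Lib.Helper82.Gh
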