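import Mathlib
import Cfsg.Agent.Lib.Helper82.Gh.Defs
import Cfsg.Agent.Lib.Helper1.CoprimeSylow

set_option autoImplicit false

namespace Cfsg.Agent.Lib.Helper82.Gh

/-- Coprime action: an invariant Sylow `q`-subgroup `Q` of `K` meets `C_K(A)` in a Sylow `q`-subgroup. -/
theorem sy1 {X : Type*} [Group X] [Finite X] (p q : ℕ) [Fact p.Prime] [Fact q.Prime]
    (A K Q : Subgroup X) (hA : IsPGroup p ↥A) (hAK : A ≤ Subgroup.normalizer (K : Set X))
    (hcop : (Nat.card ↥K).Coprime p) (hQK : Q ≤ K) (hQ : IsPGroup q ↥Q) (hQi : ¬ q ∣ Q.relIndex K)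
    (hAQ : A ≤ Subgroup.normalizer (Q : Set X)) :
    Nat.card ↥(Q ⊓ Subgroup.centralizer (A : Set X)) =
      q ^ (Nat.card ↥(K ⊓ Subgroup.centralizer (A : Set X))).factorization q := by
  have hq : q.Prime := Fact.out
  have hcopAK : (Nat.card ↥A).Coprime (Nat.card ↥K) := by
    obtain ⟨k, hk⟩ := IsPGroup.iff_card.mp hA
    rw [hk]
    exact Nat.Coprime.pow_left k hcop.symm
  have hsolv : Group.IsSolvable ↥A := by
    have := hA.isNilpotent
    infer_instance
  set C : Subgroup X := K ⊓ Subgroup.centralizer (A : Set X) with hC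
  let S : Sylow q ↥C := default
  set R : Subgroup X := (S : Subgroup ↥C).map C.subtype with hR
  have hRC : R ≤ C := Subgroup.map_subtype_le _
  have hRp : IsPGroup q ↥R := S.2.map C.subtype
  have hRcard : Nat.card ↥R = q ^ (Nat.card ↥C).factorization q := by
    rw [hR, Subgroup.card_map_of_injective C.subtype_injective, Sylow.card_eq_multiplicity]
  have hRcen : R ≤ Subgroup.centralizer (A : Set X) := hRC.trans inf_le_right
  have hAR : A ≤ Subgroup.normalizer (R : Set X) :=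
    (Subgroup.le_centralizer_iff.mp hRcen).trans (Subgroup.centralizer_le_normalizer _)
  obtain ⟨Q1, hRQ1, hQ1K, hQ1p, hQ1i, hAQ1⟩ :=
    Cfsg.Agent.Lib.Helper1.invariant_pSubgroup_le_invariant_sylow A K hAK hcopAK (Or.inl hsolv) q R
      (hRC.trans inf_le_left) hRp hAR
  obtain ⟨c, hc, hcQ⟩ := Cfsg.Agent.Lib.Helper1.invariant_sylow_conj A K hAK hcopAK (Or.inl hsolv) q Q1 Q
    hQ1K hQ1p hQ1i hQK hQ hQi hAQ1 hAQ
  have hle : R.map (MulAut.conj c).toMonoidHom ≤ Q ⊓ Subgroup.centralizer (A : Set X) := by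
    rintro _ ⟨r, hr, rfl⟩
    refine ⟨?_, ?_⟩
    · have h1 := Subgroup.smul_mem_pointwise_smul r (MulAut.conj c) Q1 (hRQ1 hr)
      rw [hcQ] at h1
      exact h1
    · show c * r * c⁻¹ ∈ Subgroup.centralizer (A : Set X)
      exact mul_mem (mul_mem hc.2 (hRcen hr)) (inv_mem hc.2)
  have h1 : Nat.card ↥R ≤ Nat.card ↥(Q ⊓ Subgroup.centralizer (A : Set X)) := by
    rw [← Subgroup.card_map_of_injective (K := R) (f := (MulAut.conj c).toMonoidHom)
      (MulAut.conj c).injective]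
    exact Subgroup.card_le_of_le hle
  have hDC : Q ⊓ Subgroup.centralizer (A : Set X) ≤ C := inf_le_inf_right _ hQK
  have hDp : IsPGroup q ↥(Q ⊓ Subgroup.centralizer (A : Set X)) := hQ.to_le inf_le_left
  obtain ⟨j, hj⟩ := IsPGroup.iff_card.mp hDp
  have hdvd : q ^ j ∣ Nat.card ↥C := hj ▸ Subgroup.card_dvd_of_le hDC
  have hjle : j ≤ (Nat.card ↥C).factorization q :=
    (hq.pow_dvd_iff_le_factorization Nat.card_pos.ne').mp hdvd
  apply le_antisymm
  · rw [hj]
    exact Nat.pow_le_pow_right hq.pos hjle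
  · rw [← hRcard]
    exact h1

end Cfsg.Agent.Lib.Helper82.Gh
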