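import Mathlib
import Cfsg.Agent.Lib.Helper82.Gh.Defs
import Cfsg.Agent.Lib.Helper1.CoprimeSylow
import Cfsg.Agent.Lib.Helper82.Gh.SY1

set_option autoImplicit false

namespace Cfsg.Agent.Lib.Helper82.Gh

theorem SY2a_centralizer_zpowers {X : Type*} [Group X] (y : X) :
    Subgroup.centralizer ((Subgroup.zpowers y : Subgroup X) : Set X)
      = Subgroup.centralizer ({y} : Set X) := by
  ext g
  rw [Subgroup.mem_centralizer_iff, Subgroup.mem_centralizer_iff]
  constructor
  · intro h z hz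
    rw [Set.mem_singleton_iff] at hz
    subst hz
    exact h z (Subgroup.mem_zpowers z)
  · rintro h _ ⟨k, rfl⟩
    have : Commute y g := h y rfl
    exact (this.zpow_left k).eq

theorem SY2a_centralizer_bot {X : Type*} [Group X] :
    Subgroup.centralizer ((⊥ : Subgroup X) : Set X) = ⊤ := by
  ext g
  simp only [Subgroup.mem_top, iff_true]
  rw [Subgroup.mem_centralizer_iff]
  intro h hh
  have : h = 1 := Subgroup.mem_bot.1 hh
  rw [this, one_mul, mul_one]

/-- Product formula over invariant Sylow subgroups. -/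
theorem sy2a {X P : Type*} [Group X] [Finite X] [Group P] [Fintype P] (p : ℕ) [Fact p.Prime]
    (hP : IsPGroup p P) (ι : P →* X) (V : Subgroup X)
    (hι : ∀ x, ι x ∈ Subgroup.normalizer (V : Set X)) (hcop : (Nat.card ↥V).Coprime p) :
    ∃ Qs : ℕ → Subgroup X,
      (∀ q ∈ (Nat.card ↥V).primeFactors, IsPGroup q ↥(Qs q) ∧
        ∀ x, ι x ∈ Subgroup.normalizer ((Qs q : Subgroup X) : Set X)) ∧
      (Nat.card ↥V = ∏ q ∈ (Nat.card ↥V).primeFactors, Nat.card ↥(Qs q)) ∧
      (∀ x, Nat.card ↥(V ⊓ Subgroup.centralizer ({ι x} : Set X)) =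
        ∏ q ∈ (Nat.card ↥V).primeFactors, Nat.card ↥(Qs q ⊓ Subgroup.centralizer ({ι x} : Set X))) ∧
      (Nat.card ↥(V ⊓ Subgroup.centralizer (ι.range : Set X)) =
        ∏ q ∈ (Nat.card ↥V).primeFactors,
          Nat.card ↥(Qs q ⊓ Subgroup.centralizer (ι.range : Set X))) := by
  classical
  have hA0p : IsPGroup p ι.range :=
    IsPGroup.of_surjective hP ι.rangeRestrict ι.rangeRestrict_surjective
  have hA0V : ι.range ≤ Subgroup.normalizer (V : Set X) := by
    rintro _ ⟨x, rfl⟩
    exact hι x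
  have hcopA : (Nat.card ι.range).Coprime (Nat.card V) := by
    obtain ⟨k, hk⟩ := IsPGroup.iff_card.mp hA0p
    rw [hk]
    exact Nat.Coprime.pow_left k hcop.symm
  have hsolv : Group.IsSolvable ι.range := by
    have : Group.IsNilpotent ι.range := hA0p.isNilpotent
    infer_instance
  have hex : ∀ q : ℕ, ∃ Q : Subgroup X, q.Prime → (Q ≤ V ∧ IsPGroup q Q ∧ ¬ q ∣ Q.relIndex V ∧
      ι.range ≤ Subgroup.normalizer (Q : Set X)) := by
    intro q
    by_cases hq : q.Prime
    · have : Fact q.Prime := ⟨hq⟩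
      obtain ⟨Q, h⟩ := Cfsg.Agent.Lib.Helper1.exists_invariant_sylow ι.range V hA0V hcopA
        (Or.inl hsolv) q
      exact ⟨Q, fun _ => h⟩
    · exact ⟨⊥, fun h => absurd h hq⟩
  choose Qs hQs using hex
  have hV0 : Nat.card V ≠ 0 := Nat.card_pos.ne'
  have star : ∀ A : Subgroup X, A ≤ ι.range →
      Nat.card ↥(V ⊓ Subgroup.centralizer (A : Set X)) =
        ∏ q ∈ (Nat.card ↥V).primeFactors, Nat.card ↥(Qs q ⊓ Subgroup.centralizer (A : Set X)) := by
    intro A hA
    have hN0 : Nat.card ↥(V ⊓ Subgroup.centralizer (A : Set X)) ≠ 0 := Nat.card_pos.ne'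
    have hdvd : Nat.card ↥(V ⊓ Subgroup.centralizer (A : Set X)) ∣ Nat.card V :=
      Subgroup.card_dvd_of_le inf_le_left
    have h1 : ∀ q ∈ (Nat.card ↥V).primeFactors,
        Nat.card ↥(Qs q ⊓ Subgroup.centralizer (A : Set X)) =
          q ^ (Nat.card ↥(V ⊓ Subgroup.centralizer (A : Set X))).factorization q := by
      intro q hq
      have hqp : q.Prime := Nat.prime_of_mem_primeFactors hq
      have : Fact q.Prime := ⟨hqp⟩
      obtain ⟨a, b, c, d⟩ := hQs q hqp
      exact sy1 p q A V (Qs q) (hA0p.to_le hA) (hA.trans hA0V) hcop a b c (hA.trans d)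
    rw [Finset.prod_congr rfl h1]
    conv_lhs => rw [← Nat.prod_factorization_pow_eq_self hN0]
    rw [Finsupp.prod, Nat.support_factorization]
    apply Finset.prod_subset (Nat.primeFactors_mono hdvd hV0)
    intro q _ hq
    have : (Nat.card ↥(V ⊓ Subgroup.centralizer (A : Set X))).factorization q = 0 :=
      Finsupp.notMem_support_iff.1 (by rwa [Nat.support_factorization])
    rw [this, pow_zero]
  refine ⟨Qs, ?_, ?_, ?_, ?_⟩
  · intro q hq
    obtain ⟨-, b, -, d⟩ := hQs q (Nat.prime_of_mem_primeFactors hq)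
    exact ⟨b, fun x => d ⟨x, rfl⟩⟩
  · have := star ⊥ bot_le
    simpa only [SY2a_centralizer_bot, inf_top_eq] using this
  · intro x
    have := star (Subgroup.zpowers (ι x)) (by
      rw [Subgroup.zpowers_le]
      exact ⟨x, rfl⟩)
    simpa only [SY2a_centralizer_zpowers] using this
  · exact star ι.range le_rfl

end Cfsg.Agent.Lib.Helper82.Gh
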