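import Mathlib
import Cfsg.Agent.Lib.Helper82.Gh.Defs
import Cfsg.Agent.Lib.Helper82.Gh.AB
import Cfsg.Agent.Lib.Helper82.Gh.C1

set_option autoImplicit false

namespace Cfsg.Agent.Lib.Helper82.Gh

universe u

open scoped commutatorElement

theorem PS_aux (p : ℕ) [Fact p.Prime] {P : Type*} [Group P] [Fintype P] (hP : IsPGroup p P) :
    ∀ n : ℕ, ∀ (V : Type u) [Group V] [Finite V], Nat.card V = n → Group.IsSolvable V →
      (Nat.card V).Coprime p → ∀ φ : P →* MulAut V, PlusT p φ := by
  intro n
  induction n using Nat.strong_induction_on with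
  | _ n ih =>
  intro V _ _ hn hs hcop φ
  by_cases hK : commutator V = ⊥
  · have hcomm : ∀ a b : V, a * b = b * a := by
      intro a b
      have h1 : ⁅a, b⁆ ∈ commutator V :=
        Subgroup.commutator_mem_commutator (Subgroup.mem_top a) (Subgroup.mem_top b)
      rw [hK, Subgroup.mem_bot] at h1
      exact commutatorElement_eq_one_iff_mul_comm.1 h1
    let _ : CommGroup V := { (inferInstance : Group V) with mul_comm := hcomm }
    exact ab p hP hcop φ
  · have hnt : Nontrivial V := by
      by_contra hc
      rw [not_nontrivial_iff_subsingleton] at hc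
      exact hK (Subsingleton.elim _ _)
    have hlt : commutator V < ⊤ := Group.IsSolvable.commutator_lt_top_of_nontrivial V
    have hcard := Subgroup.card_eq_card_quotient_mul_card_subgroup (commutator V)
    have hltc : Nat.card ↥(commutator V) < n := by
      rw [← hn]
      by_contra hcon
      have h1 : commutator V = ⊤ := Subgroup.eq_top_of_card_eq _
        (le_antisymm (Subgroup.card_le_card_group _) (not_lt.1 hcon))
      exact hlt.ne h1
    have hc1 : (Nat.card ↥(commutator V)).Coprime p :=
      Nat.Coprime.coprime_dvd_left (Dvd.intro_left _ hcard.symm) hcop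
    have hc2 : (Nat.card (Abelianization V)).Coprime p :=
      Nat.Coprime.coprime_dvd_left (Dvd.intro _ hcard.symm) hcop
    have IH := ih _ hltc ↥(commutator V) rfl inferInstance hc1
      (resAct φ (commutator V) (comm_inv φ))
    have hab := ab p hP hc2 (abAct φ)
    have hc := c1 p hP hcop φ
    have hcard' : Nat.card V = Nat.card (Abelianization V) * Nat.card ↥(commutator V) := hcard
    unfold PlusT at IH hab ⊢
    rw [hc ⊤, hcard']
    calc (∏ x : P, Nat.card ↥(FixSub φ (Subgroup.zpowers x))) ^ p
        = ((∏ x : P, Nat.card ↥(FixSub (resAct φ (commutator V) (comm_inv φ))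
              (Subgroup.zpowers x))) *
            (∏ x : P, Nat.card ↥(FixSub (abAct φ) (Subgroup.zpowers x)))) ^ p := by
          rw [← Finset.prod_mul_distrib]
          congr 1
          exact Finset.prod_congr rfl (fun x _ => hc _)
      _ = (∏ x : P, Nat.card ↥(FixSub (resAct φ (commutator V) (comm_inv φ))
              (Subgroup.zpowers x))) ^ p *
            (∏ x : P, Nat.card ↥(FixSub (abAct φ) (Subgroup.zpowers x))) ^ p := mul_pow _ _ _
      _ ≤ _ := Nat.mul_le_mul IH hab
      _ = _ := by
          rw [mul_pow, mul_pow]; ring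

/-- `(+)` for a solvable `p'`-group. -/
theorem plus_solv (p : ℕ) [Fact p.Prime] {P V : Type*} [Group P] [Fintype P] [Group V] [Finite V]
    (hP : IsPGroup p P) (hs : Group.IsSolvable V) (hcop : (Nat.card V).Coprime p)
    (φ : P →* MulAut V) : PlusT p φ :=
  PS_aux p hP _ V rfl hs hcop φ

end Cfsg.Agent.Lib.Helper82.Gh
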