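import Mathlib
import Cfsg.Agent.Lib.Helper82.Gh.Defs
import Cfsg.Agent.Lib.Helper82.Gh.PS

set_option autoImplicit false

namespace Cfsg.Agent.Lib.Helper82.Gh

theorem tr2_fix_iff {X P : Type*} [Group X] [Group P] (ι : P →* X)
    (Q : Subgroup X) (hι : ∀ x, ι x ∈ Subgroup.normalizer (Q : Set X)) (h : P) (v : ↥Q) :
    conjAct ι Q hι h v = v ↔ ι h * (v : X) = v * ι h := by
  rw [Subtype.ext_iff, conjAct_apply, mul_inv_eq_iff_eq_mul]

theorem tr2_card_zpowers {X P : Type*} [Group X] [Group P] (ι : P →* X)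
    (Q : Subgroup X) (hι : ∀ x, ι x ∈ Subgroup.normalizer (Q : Set X)) (x : P) :
    Nat.card ↥(FixSub (conjAct ι Q hι) (Subgroup.zpowers x)) =
      Nat.card ↥(Q ⊓ Subgroup.centralizer ({ι x} : Set X)) := by
  apply Nat.card_congr
  refine ⟨fun v => ⟨v.1.1, v.1.2, ?_⟩, fun w => ⟨⟨w.1, w.2.1⟩, ?_⟩, fun v => rfl, fun w => rfl⟩
  · show v.1.1 ∈ Subgroup.centralizer ({ι x} : Set X)
    rw [Subgroup.mem_centralizer_singleton_iff]
    exact ((tr2_fix_iff ι Q hι x v.1).mp (v.2 x (Subgroup.mem_zpowers x))).symm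
  · intro h hh
    rw [tr2_fix_iff]
    have hw : w.1 * ι x = ι x * w.1 := Subgroup.mem_centralizer_singleton_iff.mp w.2.2
    have h1 : Subgroup.zpowers (ι x) ≤ Subgroup.centralizer ({w.1} : Set X) := by
      rw [Subgroup.zpowers_le, Subgroup.mem_centralizer_singleton_iff]
      exact hw.symm
    obtain ⟨n, rfl⟩ := Subgroup.mem_zpowers_iff.mp hh
    have h2 : ι (x ^ n) ∈ Subgroup.centralizer ({w.1} : Set X) := by
      rw [map_zpow]
      exact h1 (Subgroup.zpow_mem_zpowers _ n)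
    exact Subgroup.mem_centralizer_singleton_iff.mp h2

theorem tr2_card_top {X P : Type*} [Group X] [Group P] (ι : P →* X)
    (Q : Subgroup X) (hι : ∀ x, ι x ∈ Subgroup.normalizer (Q : Set X)) :
    Nat.card ↥(FixSub (conjAct ι Q hι) ⊤) =
      Nat.card ↥(Q ⊓ Subgroup.centralizer (ι.range : Set X)) := by
  apply Nat.card_congr
  refine ⟨fun v => ⟨v.1.1, v.1.2, ?_⟩, fun w => ⟨⟨w.1, w.2.1⟩, ?_⟩, fun v => rfl, fun w => rfl⟩
  · show v.1.1 ∈ Subgroup.centralizer (ι.range : Set X)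
    rw [Subgroup.mem_centralizer_iff]
    rintro _ ⟨h, rfl⟩
    exact (tr2_fix_iff ι Q hι h v.1).mp (v.2 h (Subgroup.mem_top h))
  · intro h _
    rw [tr2_fix_iff]
    exact Subgroup.mem_centralizer_iff.mp w.2.2 (ι h) ⟨h, rfl⟩

/-- From the abstract action on the type `↥Q` to the ambient form. -/
theorem tr2 {X P : Type*} [Group X] [Finite X] [Group P] [Fintype P] (p : ℕ) (ι : P →* X)
    (Q : Subgroup X) (hι : ∀ x, ι x ∈ Subgroup.normalizer (Q : Set X))
    (h : PlusT p (conjAct ι Q hι)) : PlusAmb p ι Q := by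
  unfold PlusT at h
  unfold PlusAmb
  rw [tr2_card_top] at h
  simp only [tr2_card_zpowers] at h
  exact h

theorem plus_amb_q {X P : Type*} [Group X] [Finite X] [Group P] [Fintype P] (p : ℕ) [Fact p.Prime]
    (hP : IsPGroup p P) (ι : P →* X) (q : ℕ) [Fact q.Prime] (hqp : q ≠ p) (Q : Subgroup X)
    (hQ : IsPGroup q ↥Q) (hι : ∀ x, ι x ∈ Subgroup.normalizer (Q : Set X)) : PlusAmb p ι Q := by
  have hs : Group.IsSolvable ↥Q := by
    have := hQ.isNilpotent
    infer_instance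
  have hcop : (Nat.card ↥Q).Coprime p := by
    obtain ⟨k, hk⟩ := IsPGroup.iff_card.mp hQ
    rw [hk]
    exact Nat.Coprime.pow_left k ((Nat.coprime_primes (Fact.out) (Fact.out)).mpr hqp)
  exact tr2 p ι Q hι (plus_solv p hP hs hcop (conjAct ι Q hι))

end Cfsg.Agent.Lib.Helper82.Gh
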