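import Mathlib
import Cfsg.Agent.Lib.Helper82.Gh.Defs
import Cfsg.Agent.Lib.Helper82.Gh.SY2a
import Cfsg.Agent.Lib.Helper82.Gh.TR2

set_option autoImplicit false

namespace Cfsg.Agent.Lib.Helper82.Gh

/-- `(+)` for an arbitrary `p'`-subgroup `V` normalised by `ι P`. -/
theorem plus_amb {X P : Type*} [Group X] [Finite X] [Group P] [Fintype P] (p : ℕ) [Fact p.Prime]
    (hP : IsPGroup p P) (ι : P →* X) (V : Subgroup X)
    (hι : ∀ x, ι x ∈ Subgroup.normalizer (V : Set X)) (hcop : (Nat.card ↥V).Coprime p) :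
    PlusAmb p ι V := by
  classical
  obtain ⟨Qs, h1, h2, h3, h4⟩ := sy2a p hP ι V hι hcop
  have hq : ∀ q ∈ (Nat.card ↥V).primeFactors, PlusAmb p ι (Qs q) := by
    intro q hq
    have hqp : q.Prime := Nat.prime_of_mem_primeFactors hq
    have : Fact q.Prime := ⟨hqp⟩
    have hne : q ≠ p := by
      rintro rfl
      have hd : q ∣ Nat.card V := Nat.dvd_of_mem_primeFactors hq
      have := Nat.Coprime.eq_one_of_dvd hcop.symm hd
      exact hqp.one_lt.ne' this
    exact plus_amb_q p hP ι q hne (Qs q) (h1 q hq).1 (h1 q hq).2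
  unfold PlusAmb at hq ⊢
  obtain ⟨s, hs⟩ : ∃ s, s = (Nat.card ↥V).primeFactors := ⟨_, rfl⟩
  rw [← hs] at h2 h3 h4 hq
  rw [Finset.prod_congr rfl (fun x _ => h3 x), h4, h2, Finset.prod_comm, ← Finset.prod_pow,
    ← Finset.prod_pow, ← Finset.prod_pow, ← Finset.prod_mul_distrib]
  exact Finset.prod_le_prod' hq

end Cfsg.Agent.Lib.Helper82.Gh
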