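import Mathlib
import Cfsg.Agent.Lib.Helper82.Gh.Defs

set_option autoImplicit false

namespace Cfsg.Agent.Lib.Helper82.Gh

/-- The count of S4090 is the order of a centraliser in the quotient group. -/
theorem tr1 {G : Type*} [Group G] [Finite G] (A B H : Subgroup G) [A.Normal] (hAB : A ≤ B) :
    dC A B H = Nat.card ↥(B.map (QuotientGroup.mk' A) ⊓
      Subgroup.centralizer ((H.map (QuotientGroup.mk' A) : Subgroup (G ⧸ A)) : Set (G ⧸ A))) := by
  set R : Subgroup (G ⧸ A) := B.map (QuotientGroup.mk' A) ⊓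
      Subgroup.centralizer ((H.map (QuotientGroup.mk' A) : Subgroup (G ⧸ A)) : Set (G ⧸ A)) with hR
  set N : Subgroup G := R.comap (QuotientGroup.mk' A) with hN
  have hiff : ∀ u : G, (u ∈ B ∧ ∀ h ∈ H, h * u * h⁻¹ * u⁻¹ ∈ A) ↔ u ∈ N := by
    intro u
    rw [hN, Subgroup.mem_comap, hR, Subgroup.mem_inf]
    apply and_congr
    · constructor
      · intro hu
        exact Subgroup.mem_map_of_mem _ hu
      · rintro ⟨b, hb, hbu⟩
        have h1 : b⁻¹ * u ∈ A := QuotientGroup.eq.mp hbu
        have h2 : u = b * (b⁻¹ * u) := by group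
        rw [h2]
        exact mul_mem hb (hAB h1)
    · rw [Subgroup.mem_centralizer_iff]
      constructor
      · rintro hu _ ⟨h, hh, rfl⟩
        have h1 := (QuotientGroup.eq_one_iff (N := A) _).mpr (hu h hh)
        have h2 : QuotientGroup.mk' A h * QuotientGroup.mk' A u * (QuotientGroup.mk' A h)⁻¹ *
            (QuotientGroup.mk' A u)⁻¹ = 1 := h1
        rw [mul_inv_eq_one, mul_inv_eq_iff_eq_mul] at h2
        exact h2
      · intro hu h hh
        have h1 := hu (QuotientGroup.mk' A h) (Subgroup.mem_map_of_mem _ hh)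
        apply (QuotientGroup.eq_one_iff (N := A) _).mp
        show QuotientGroup.mk' A h * QuotientGroup.mk' A u * (QuotientGroup.mk' A h)⁻¹ *
            (QuotientGroup.mk' A u)⁻¹ = 1
        rw [mul_inv_eq_one, mul_inv_eq_iff_eq_mul]
        exact h1
  have hcard : Nat.card {u : G // u ∈ B ∧ ∀ h ∈ H, h * u * h⁻¹ * u⁻¹ ∈ A} = Nat.card ↥N :=
    Nat.card_congr (Equiv.subtypeEquivRight hiff)
  have h1 : Nat.card ↥N * N.index = Nat.card G := N.card_mul_index
  have h2 : Nat.card ↥R * R.index = Nat.card (G ⧸ A) := R.card_mul_index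
  have h3 : N.index = R.index := Subgroup.index_comap_of_surjective R (QuotientGroup.mk'_surjective A)
  have h4 : Nat.card G = Nat.card (G ⧸ A) * Nat.card ↥A :=
    Subgroup.card_eq_card_quotient_mul_card_subgroup A
  have h5 : R.index ≠ 0 := Subgroup.index_ne_zero_of_finite
  have h6 : Nat.card ↥N = Nat.card ↥R * Nat.card ↥A := by
    rw [h3, h4, ← h2] at h1
    have h7 : Nat.card ↥N * R.index = (Nat.card ↥R * Nat.card ↥A) * R.index := by
      rw [h1]; ring
    exact Nat.eq_of_mul_eq_mul_right (Nat.pos_of_ne_zero h5) h7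
  unfold dC
  rw [hcard, h6]
  exact Nat.mul_div_cancel _ Nat.card_pos

end Cfsg.Agent.Lib.Helper82.Gh
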