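import Mathlib
import Cfsg.Agent.Lib.Helper82.Gh.Defs
import Cfsg.Agent.Lib.Helper82.Gh.TR1
import Cfsg.Agent.Lib.Helper82.Gh.SY2b

set_option autoImplicit false

namespace Cfsg.Agent.Lib.Helper82.Gh

/-- The key inequality for one `p'`-factor `B / A` of a normal series. -/
theorem kf {G : Type*} [Group G] [Finite G] (p : ℕ) [Fact p.Prime] (P : Sylow p G)
    [Fintype ↥(P : Subgroup G)] (A B : Subgroup G) [A.Normal] [B.Normal] (hAB : A ≤ B)
    (hcop : (A.relIndex B).Coprime p) :
    (∏ x : ↥(P : Subgroup G), dC A B (Subgroup.zpowers (x : G))) ^ p ≤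
      dC A B ⊥ ^ Fintype.card ↥(P : Subgroup G) *
        dC A B (P : Subgroup G) ^ (Fintype.card ↥(P : Subgroup G) * (p - 1)) := by
  have hVn : (B.map (QuotientGroup.mk' A)).Normal :=
    Subgroup.Normal.map inferInstance _ (QuotientGroup.mk'_surjective A)
  have hcard : Nat.card ↥(B.map (QuotientGroup.mk' A)) = A.relIndex B := by
    rw [← Subgroup.relIndex_ker, QuotientGroup.ker_mk']
  have key := plus_amb p P.isPGroup' ((QuotientGroup.mk' A).comp (P : Subgroup G).subtype)
    (B.map (QuotientGroup.mk' A))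
    (fun x => by rw [Subgroup.normalizer_eq_top]; exact Subgroup.mem_top _)
    (by rw [hcard]; exact hcop)
  unfold PlusAmb at key
  have e1 : ∀ x : ↥(P : Subgroup G), dC A B (Subgroup.zpowers (x : G)) =
      Nat.card ↥(B.map (QuotientGroup.mk' A) ⊓ Subgroup.centralizer
        ({((QuotientGroup.mk' A).comp (P : Subgroup G).subtype) x} : Set (G ⧸ A))) := by
    intro x
    rw [tr1 A B _ hAB, MonoidHom.map_zpowers, SY2a_centralizer_zpowers]
    rfl
  have e2 : dC A B ⊥ = Nat.card ↥(B.map (QuotientGroup.mk' A)) := by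
    rw [tr1 A B _ hAB, Subgroup.map_bot, SY2a_centralizer_bot, inf_top_eq]
  have e3 : dC A B (P : Subgroup G) = Nat.card ↥(B.map (QuotientGroup.mk' A) ⊓
      Subgroup.centralizer
        ((((QuotientGroup.mk' A).comp (P : Subgroup G).subtype).range : Subgroup (G ⧸ A)) :
          Set (G ⧸ A))) := by
    rw [tr1 A B _ hAB, MonoidHom.range_comp, Subgroup.range_subtype]
  rw [Finset.prod_congr rfl (fun x _ => e1 x), e2, e3]
  exact key

end Cfsg.Agent.Lib.Helper82.Gh
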